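import Mathlib
import Cfsg.Agent.H361.SelfCent
set_option linter.all false

-- part: H361/CommGraph
section
/-!
# Groups with the commuting graph of a group with a self-centralising element of prime order

`card_eq`, `card_centralizer_eq`: the commuting graph determines the order of the group and the orders
of the centralisers.  `modEq`, `eq_top`: a finite group of order `p m` (`p` prime, `p ∤ m`) with an
element whose centraliser has order `p`: Sylow subgroups of normal `p'`-subgroups have order `≡ 1`
modulo `p`, and, if the normaliser of a Sylow `p`-subgroup has order `p e` with `e` prime and there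
are no nontrivial normal `p'`-subgroups, the group has no proper normal subgroup of order divisible
by `p`.
-/

set_option autoImplicit false

namespace Cfsg.Agent.H361.CommGraph

open Subgroup

section Graph

variable {H G : Type*} [Group H] [Group G] [Finite H] [Finite G]
  (f : {h : H // h ≠ 1} ≃ {g : G // g ≠ 1})

theorem nontriv_eq (X : Type*) [Group X] [Finite X] : Nat.card X = Nat.card {x : X // x ≠ 1} + 1 := by
  classical
  have := Fintype.ofFinite X
  rw [Nat.card_eq_fintype_card, Nat.card_eq_fintype_card, Fintype.card_subtype_compl,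
    Fintype.card_subtype_eq]
  have : 0 < Fintype.card X := Fintype.card_pos
  omega

include f in
theorem card_eq : Nat.card H = Nat.card G := by
  rw [nontriv_eq H, nontriv_eq G, Nat.card_congr f]

theorem centralizer_card (X : Type*) [Group X] [Finite X] (x : {x : X // x ≠ 1}) :
    Nat.card (centralizer ({(x : X)} : Set X)) =
      Nat.card {y : {x : X // x ≠ 1} // (x : X) * y = y * x} + 1 := by
  rw [nontriv_eq (centralizer ({(x : X)} : Set X))]
  congr 1
  refine Nat.card_congr
    { toFun := fun y => ⟨⟨(y.1 : X), fun h => y.2 (Subtype.ext h)⟩,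
        ?_⟩
      invFun := fun y => ⟨⟨(y.1 : X), ?_⟩, fun h => y.1.2 (congrArg Subtype.val h)⟩
      left_inv := fun y => rfl
      right_inv := fun y => rfl }
  · exact (mem_centralizer_singleton_iff.1 y.1.2).symm
  · exact mem_centralizer_singleton_iff.2 y.2.symm

theorem card_centralizer_eq
    (hf : ∀ x y : {h : H // h ≠ 1}, (x : H) * y = y * x ↔ ((f x) : G) * (f y) = (f y) * (f x))
    (x : {h : H // h ≠ 1}) :
    Nat.card (centralizer ({(x : H)} : Set H)) = Nat.card (centralizer ({(f x : G)} : Set G)) := by
  rw [centralizer_card H x, centralizer_card G (f x)]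
  congr 1
  refine Nat.card_congr (f.subtypeEquiv fun y => ?_)
  exact hf x y

end Graph

end Cfsg.Agent.H361.CommGraph
end

-- part: H361/OrderSimple
section
/-!
# Groups of order 7920 and 5616 with a self-centralising element of order 11, 13

`simple_7920`, `simple_5616`: such a group is simple.
-/

set_option autoImplicit false

namespace Cfsg.Agent.H361.OrderSimple

open Subgroup Cfsg.Agent.H361.SelfCent

theorem not_primePow {r k d a b : ℕ} (hr : r.Prime) (hd : r ^ k = d) (ha : a.Prime) (hb : b.Prime)
    (hab : a ≠ b) (had : a ∣ d) (hbd : b ∣ d) : False := by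
  have h1 : a ∣ r := ha.dvd_of_dvd_pow (hd ▸ had)
  have h2 : b ∣ r := hb.dvd_of_dvd_pow (hd ▸ hbd)
  have h3 := (Nat.prime_dvd_prime_iff_eq ha hr).1 h1
  have h4 := (Nat.prime_dvd_prime_iff_eq hb hr).1 h2
  exact hab (h3.trans h4.symm)

theorem div720 : (Nat.divisors 720).filter (fun d => d % 11 = 1) = {1, 12, 45, 144} := by decide +kernel

theorem div432 : (Nat.divisors 432).filter (fun d => d % 13 = 1) = {1, 27, 144} := by decide +kernel

theorem simple_of {H : Type*} [Group H] [Finite H] [Nontrivial H] {p : ℕ}
    (h1 : ∀ K : Subgroup H, K.Normal → ¬ p ∣ Nat.card K → K = ⊥)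
    (h2 : ∀ K : Subgroup H, K.Normal → p ∣ Nat.card K → K = ⊤) : IsSimpleGroup H := by
  refine ⟨fun K hK => ?_⟩
  by_cases h : p ∣ Nat.card K
  · exact Or.inr (h2 K hK h)
  · exact Or.inl (h1 K hK h)

theorem sylow_data {H : Type*} [Group H] [Finite H] {p m : ℕ} {x : H} (h : Sit H p m x) (hm : m ≠ 1)
    {K : Subgroup H} (hK : K.Normal) (hpK : ¬ p ∣ Nat.card K) {r : ℕ} (hr : r.Prime)
    (hrK : r ∣ Nat.card K) :
    ∃ k, 0 < k ∧ r ^ k ∣ m ∧ r ^ k % p = 1 ∧ k = (Nat.card K).factorization r := by
  have hr' : Fact r.Prime := ⟨hr⟩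
  obtain ⟨R⟩ : Nonempty (Sylow r K) := inferInstance
  refine ⟨(Nat.card K).factorization r, hr.factorization_pos_of_dvd Nat.card_pos.ne' hrK, ?_, ?_, rfl⟩
  · have h1 : r ^ (Nat.card K).factorization r ∣ Nat.card K := Nat.ordProj_dvd _ _
    have h2 : Nat.card K ∣ p * m := by rw [← h.card]; exact Subgroup.card_subgroup_dvd_card _
    have h3 : Nat.Coprime (Nat.card K) p := (Nat.coprime_comm.1 ((Nat.Prime.coprime_iff_not_dvd h.prime).2 hpK))
    exact h1.trans (h3.dvd_of_dvd_mul_left h2)
  · have h1 := h.modEq hm K hpK hr R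
    rw [R.card_eq_multiplicity] at h1
    rw [h1.symm.symm, Nat.mod_eq_of_lt h.prime.one_lt]

theorem simple_7920 {H : Type*} [Group H] [Finite H] (hc : Nat.card H = 7920) {x : H}
    (hx : Nat.card (centralizer ({x} : Set H)) = 11) : IsSimpleGroup H := by
  have hS : Sit H 11 720 x := ⟨by norm_num, by rw [hc], by norm_num, hx⟩
  have hm : (720 : ℕ) ≠ 1 := by norm_num
  have hnt : Nontrivial H := by
    rw [← Finite.one_lt_card_iff_nontrivial, hc]; norm_num
  have h1 : ∀ K : Subgroup H, K.Normal → ¬ 11 ∣ Nat.card K → K = ⊥ := by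
    intro K hK hpK
    by_contra hne
    have hK1 : Nat.card K ≠ 1 := fun h => hne (Subgroup.card_eq_one.1 h)
    obtain ⟨r, hr, hrK⟩ := Nat.exists_prime_and_dvd hK1
    obtain ⟨k, hk, hk1, hk2, -⟩ := sylow_data hS hm hK hpK hr hrK
    have h2 : r ^ k ∈ (Nat.divisors 720).filter (fun d => d % 11 = 1) := by
      rw [Finset.mem_filter, Nat.mem_divisors]
      exact ⟨⟨hk1, by norm_num⟩, hk2⟩
    rw [div720] at h2
    simp only [Finset.mem_insert, Finset.mem_singleton] at h2
    rcases h2 with h2 | h2 | h2 | h2
    · exact (Nat.one_lt_pow hk.ne' hr.one_lt).ne' h2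
    · exact not_primePow hr h2 (a := 2) (b := 3) (by norm_num) (by norm_num) (by norm_num)
        (by norm_num) (by norm_num)
    · exact not_primePow hr h2 (a := 5) (b := 3) (by norm_num) (by norm_num) (by norm_num)
        (by norm_num) (by norm_num)
    · exact not_primePow hr h2 (a := 2) (b := 3) (by norm_num) (by norm_num) (by norm_num)
        (by norm_num) (by norm_num)
  obtain ⟨e, he, hne, hn1⟩ := hS.card_sylow_eq hm
  have hn : Nat.card (Sylow 11 H) = 144 ∧ e = 5 := by
    have he' : e ∈ Nat.divisors 10 := Nat.mem_divisors.2 ⟨he, by norm_num⟩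
    have h10 : Nat.divisors 10 = {1, 2, 5, 10} := by decide +kernel
    rw [h10] at he'
    simp only [Finset.mem_insert, Finset.mem_singleton] at he'
    unfold Nat.ModEq at hn1
    rcases he' with rfl | rfl | rfl | rfl <;> omega
  refine simple_of h1 fun K hK hpK => ?_
  exact hS.eq_top hm hn.1 (by rw [← hn.1]; exact hne) (e := e) (by rw [hn.2]; norm_num)
    (by norm_num) h1 K hpK

theorem simple_5616 {H : Type*} [Group H] [Finite H] (hc : Nat.card H = 5616) {x : H}
    (hx : Nat.card (centralizer ({x} : Set H)) = 13) : IsSimpleGroup H := by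
  have hS : Sit H 13 432 x := ⟨by norm_num, by rw [hc], by norm_num, hx⟩
  have hm : (432 : ℕ) ≠ 1 := by norm_num
  have hnt : Nontrivial H := by
    rw [← Finite.one_lt_card_iff_nontrivial, hc]; norm_num
  obtain ⟨e, he, hne, hn1⟩ := hS.card_sylow_eq hm
  have hn : Nat.card (Sylow 13 H) = 144 ∧ e = 3 := by
    have he' : e ∈ Nat.divisors 12 := Nat.mem_divisors.2 ⟨he, by norm_num⟩
    have h10 : Nat.divisors 12 = {1, 2, 3, 4, 6, 12} := by decide +kernel
    rw [h10] at he'
    simp only [Finset.mem_insert, Finset.mem_singleton] at he'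
    unfold Nat.ModEq at hn1
    rcases he' with rfl | rfl | rfl | rfl | rfl | rfl <;> omega
  have h1 : ∀ K : Subgroup H, K.Normal → ¬ 13 ∣ Nat.card K → K = ⊥ := by
    intro K hK hpK
    by_contra hne
    have hK1 : Nat.card K ≠ 1 := fun h => hne (Subgroup.card_eq_one.1 h)
    have key : ∀ r : ℕ, r.Prime → r ∣ Nat.card K → r = 3 ∧ (Nat.card K).factorization r = 3 := by
      intro r hr hrK
      obtain ⟨k, hk, hk1, hk2, hk3⟩ := sylow_data hS hm hK hpK hr hrK
      rw [← hk3]
      have h2 : r ^ k ∈ (Nat.divisors 432).filter (fun d => d % 13 = 1) := by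
        rw [Finset.mem_filter, Nat.mem_divisors]
        exact ⟨⟨hk1, by norm_num⟩, hk2⟩
      rw [div432] at h2
      simp only [Finset.mem_insert, Finset.mem_singleton] at h2
      rcases h2 with h2 | h2 | h2
      · exact ((Nat.one_lt_pow hk.ne' hr.one_lt).ne' h2).elim
      · have h3 : r = 3 := by
          have h4 : 3 ∣ r ^ k := by rw [h2]; norm_num
          exact ((Nat.prime_dvd_prime_iff_eq Nat.prime_three hr).1
            (Nat.prime_three.dvd_of_dvd_pow h4)).symm
        refine ⟨h3, ?_⟩
        rw [h3] at h2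
        have h5 : 3 ^ k = 3 ^ 3 := by rw [h2]; norm_num
        exact Nat.pow_right_injective (le_refl 2 |>.trans (by norm_num)) h5
      · exact (not_primePow hr h2 (a := 2) (b := 3) (by norm_num) (by norm_num) (by norm_num)
          (by norm_num) (by norm_num)).elim
    obtain ⟨r, hr, hrK⟩ := Nat.exists_prime_and_dvd hK1
    obtain ⟨rfl, hf⟩ := key r hr hrK
    have hcard : Nat.card K = 27 := by
      have h5 : Nat.card K = 3 ^ (Nat.card K).primeFactorsList.length :=
        Nat.eq_prime_pow_of_unique_prime_dvd Nat.card_pos.ne' fun {d} hd hdK => (key d hd hdK).1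
      have h6 : (Nat.card K).primeFactorsList.length = 3 := by
        have h7 := congrArg (fun n => n.factorization 3) h5
        simp only [Nat.prime_three.factorization_pow, Finsupp.single_eq_same] at h7
        rw [← h7, hf]
      rw [h5, h6]
      norm_num
    have hidx : K.index = 13 * 16 := by
      have h5 := K.card_mul_index
      rw [hcard, hc] at h5
      omega
    have h6 := hS.card_sylow_le hidx (by
      intro d hd hd1
      have hd' : d ∈ Nat.divisors 16 := Nat.mem_divisors.2 ⟨hd, by norm_num⟩
      have h10 : Nat.divisors 16 = {1, 2, 4, 8, 16} := by decide +kernel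
      rw [h10] at hd'
      simp only [Finset.mem_insert, Finset.mem_singleton] at hd'
      unfold Nat.ModEq at hd1
      omega)
    rw [hn.1, hcard] at h6
    omega
  refine simple_of h1 fun K hK hpK => ?_
  exact hS.eq_top hm hn.1 (by rw [← hn.1]; exact hne) (e := e) (by rw [hn.2]; norm_num)
    (by norm_num) h1 K hpK

end Cfsg.Agent.H361.OrderSimple
end
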